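import Cfsg.Agent.H406.IF.RGroup
import Cfsg.Agent.H999.IF.HeisU

/-!
# S5719, unitary groups in characteristic 2 (helper406): descent to transvections

`X ≤ SIso B` such that `|C : X ∩ C| ^ 5 < |G : C_G(t)|` for every involution `t ∈ X` and every `C ≤ C_G(t)`.
* `descent` : an involution of rank `k ≥ 3` in `X` yields an involution of smaller rank in `X`;
* `two_one` : an involution of rank 2 in `X` yields a transvection in `X`;
* `exists_transv` : if `X` contains an involution, then it contains a transvection.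
-/

set_option autoImplicit false
set_option linter.unusedSectionVars false

namespace Cfsg.Agent.H406.IF

open Module Subgroup Cfsg.Agent.H91.U Cfsg.Agent.H450.UF

variable {F V : Type*} [Field F] [AddCommGroup V] [Module F V] {σ : F →+* F} {B : V →ₛₗ[σ] V →ₗ[F] F}

/-- the group theoretic hypothesis -/
def Small (X : Subgroup (SIso B)) : Prop := ∀ t ∈ X, t * t = 1 → t ≠ 1 → ∀ C : Subgroup (SIso B),
  (∀ c ∈ C, c * t = t * c) → X.relIndex C ^ 5 < (centralizer ({t} : Set (SIso B))).index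

variable (B) in
/-- the bound for the class of `t_u` -/
def ClassLe (q : ℕ) : Prop := ∀ (k : ℕ) (u : Fin k → V), Frame B u → ∀ t : SIso B,
  (∀ x, t.1 x = x + ∑ i, B (u i) x • u i) →
  (centralizer ({t} : Set (SIso B))).index * q ^ k ≤ (q + 1) ^ k * q ^ (2 * k * (finrank F V - k))

theorem tu_sq (h2 : (2 : F) = 0) {k : ℕ} {u : Fin k → V} (hu : Frame B u) {t : SIso B}
    (ht : ∀ x, t.1 x = x + ∑ i, B (u i) x • u i) : t * t = 1 := by
  apply Subtype.ext
  ext x
  change t.1 (t.1 x) = x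
  have h3 : ∀ i, B (u i) (t.1 x) = B (u i) x := by
    intro i
    rw [ht, map_add, map_sum]
    simp only [smul_right, hu.ti, mul_zero, Finset.sum_const_zero, add_zero]
  rw [ht (t.1 x)]
  simp only [h3]
  rw [ht x, add_assoc, ← two_smul F (∑ i, B (u i) x • u i), h2, zero_smul, add_zero]

theorem tu_ne [Finite F] [FiniteDimensional F V] (hB : HForm B) {k : ℕ} (hk : 1 ≤ k) {u : Fin k → V} (hu : Frame B u)
    {t : SIso B} (ht : ∀ x, t.1 x = x + ∑ i, B (u i) x • u i) : t ≠ 1 := by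
  rintro rfl
  obtain ⟨f, hf⟩ := exists_dual_vec hB hu
  have h1 := ht (f ⟨0, hk⟩)
  change f ⟨0, hk⟩ = _ at h1
  simp only [hf, ite_smul, one_smul, zero_smul, Finset.sum_ite_eq, Finset.mem_univ, if_true] at h1
  exact hu.li.ne_zero _ (left_eq_add.1 h1)

theorem pow_aux {q k : ℕ} (hq : 2 ≤ q) (hk : 3 ≤ k) : (q + 1) ^ k ≤ q ^ (2 * k - 1) := by
  have h1 : 2 * (q + 1) ≤ 3 * q := by omega
  have h2 : (2 * (q + 1)) ^ k ≤ (3 * q) ^ k := Nat.pow_le_pow_left h1 k
  have h3 : 2 * 3 ^ k ≤ 4 ^ k := by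
    obtain ⟨j, rfl⟩ := Nat.exists_eq_add_of_le hk
    rw [pow_add, pow_add]
    have h4 : 3 ^ j ≤ 4 ^ j := Nat.pow_le_pow_left (by norm_num) j
    omega
  rw [mul_pow, mul_pow] at h2
  have h4 : (2 : ℕ) ^ k * 2 ^ k = 4 ^ k := by rw [← mul_pow]; norm_num
  have h5 : 2 ^ k * (2 * (q + 1) ^ k) ≤ 2 ^ k * (2 ^ k * q ^ k) := by
    calc 2 ^ k * (2 * (q + 1) ^ k) = 2 * (2 ^ k * (q + 1) ^ k) := by ring
      _ ≤ 2 * (3 ^ k * q ^ k) := Nat.mul_le_mul_left 2 h2
      _ = (2 * 3 ^ k) * q ^ k := by ring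
      _ ≤ 4 ^ k * q ^ k := Nat.mul_le_mul_right _ h3
      _ = 2 ^ k * (2 ^ k * q ^ k) := by rw [← h4]; ring
  have h6 := Nat.le_of_mul_le_mul_left h5 (by positivity)
  have h7 : (2 : ℕ) ^ k = 2 * 2 ^ (k - 1) := by
    rw [← pow_succ', Nat.sub_add_cancel (by omega)]
  rw [h7, mul_assoc] at h6
  have h8 := Nat.le_of_mul_le_mul_left h6 two_pos
  have h9 : 2 ^ (k - 1) * q ^ k ≤ q ^ (k - 1) * q ^ k := Nat.mul_le_mul_right _ (Nat.pow_le_pow_left hq _)
  rw [← pow_add, show k - 1 + k = 2 * k - 1 by omega] at h9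
  exact h8.trans h9

theorem exp_aux {n k : ℕ} (hk : 3 ≤ k) (hn : 2 * k ≤ n) :
    2 * k - 1 + 2 * k * (n - k) ≤ 5 * (1 + 2 * ((k - 1) / 2 * (n - k - (k - 1) / 2))) + k := by
  obtain ⟨r, rfl⟩ := Nat.exists_eq_add_of_le hn
  obtain ⟨s, hs⟩ : ∃ s, s = (k - 1) / 2 := ⟨_, rfl⟩
  rw [← hs]
  have h1 : 2 * k + r - k = k + r := by omega
  rw [h1]
  have h3 : 1 ≤ s := by omega
  rcases (show k = 2 * s + 1 ∨ k = 2 * s + 2 by omega) with e | e
  · have h2 : k + r - s = s + 1 + r := by omega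
    rw [h2, e]
    have h4 : 2 * (2 * s + 1) - 1 = 4 * s + 1 := by omega
    rw [h4]
    have h5 : r ≤ s * r := Nat.le_mul_of_pos_left _ h3
    nlinarith
  · have h2 : k + r - s = s + 2 + r := by omega
    rw [h2, e]
    have h4 : 2 * (2 * s + 2) - 1 = 4 * s + 3 := by omega
    rw [h4]
    have h5 : r ≤ s * r := Nat.le_mul_of_pos_left _ h3
    nlinarith

section

variable [Fintype F] [FiniteDimensional F V]

theorem finite_SIso (B : V →ₛₗ[σ] V →ₗ[F] F) : Finite (SIso B) := by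
  have : Finite V := Module.finite_of_finite F
  have : Finite (V ≃ₗ[F] V) := Finite.of_injective (fun g : V ≃ₗ[F] V => (g : V → V)) DFunLike.coe_injective
  infer_instance

theorem two_le_q {q : ℕ} (hF : Fintype.card F = q ^ 2) : 2 ≤ q := Cfsg.Agent.LieClassical.HermBasic.two_le hF

/-- **Descent.** -/
theorem descent {q : ℕ} (hF : Fintype.card F = q ^ 2) (hB : HForm B) (h2 : (2 : F) = 0) (hcl : ClassLe B q)
    {X : Subgroup (SIso B)} (hX : Small X) {k : ℕ} (hk : 3 ≤ k) {u : Fin k → V} (hu : Frame B u) {t : SIso B}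
    (htX : t ∈ X) (ht : ∀ x, t.1 x = x + ∑ i, B (u i) x • u i) :
    ∃ k' : ℕ, 1 ≤ k' ∧ k' < k ∧ ∃ u' : Fin k' → V, Frame B u' ∧ ∃ t' ∈ X, ∀ x, t'.1 x = x + ∑ i, B (u' i) x • u' i := by
  have := finite_SIso B
  have hq := two_le_q hF
  have hn := frame_two_mul_le hB hu
  set s := (k - 1) / 2 with hs
  have hs1 : 1 ≤ s := by omega
  have hsk : s ≤ k := by omega
  obtain ⟨g, hgX, hgR, hg1⟩ : ∃ g ∈ X, g ∈ RR B u s ∧ g ≠ 1 := by
    by_contra hcon
    push Not at hcon
    have h3 : X ⊓ RR B u s = ⊥ := by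
      rw [eq_bot_iff]
      rintro g ⟨h4, h5⟩
      exact mem_bot.2 (hcon g h4 h5)
    have h4 := hX t htX (tu_sq h2 hu ht) (tu_ne hB (by omega) hu ht) (RR B u s) (fun c hc => RR_comm ht hc.1)
    rw [← inf_relIndex_right, h3, relIndex_bot_left] at h4
    have h5 := hcl k u hu t ht
    have h6 := card_RR hF hB h2 hu hs1 hsk
    rw [← pow_mul, ← pow_succ', show 2 * (s * (finrank F V - k - s)) + 1 = 1 + 2 * (s * (finrank F V - k - s)) by ring]
      at h6
    have h7 := Nat.pow_le_pow_left h6 5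
    rw [← pow_mul] at h7
    have h8 : q ^ ((1 + 2 * (s * (finrank F V - k - s))) * 5) * q ^ k < (q + 1) ^ k * q ^ (2 * k * (finrank F V - k)) :=
      lt_of_lt_of_le (Nat.mul_lt_mul_of_pos_right (lt_of_le_of_lt h7 h4) (by positivity)) h5
    have h9 : (q + 1) ^ k * q ^ (2 * k * (finrank F V - k)) ≤ q ^ (2 * k - 1) * q ^ (2 * k * (finrank F V - k)) :=
      Nat.mul_le_mul_right _ (pow_aux hq hk)
    rw [← pow_add] at h9
    rw [← pow_add] at h8
    have h10 := lt_of_lt_of_le h8 h9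
    rw [Nat.pow_lt_pow_iff_right (by omega)] at h10
    have h11 := exp_aux hk hn
    rw [← hs] at h11
    omega
  obtain ⟨g', hgX', hgR', hg1', hgg'⟩ : ∃ g' ∈ X, g' ∈ RR B u s ∧ g' ≠ 1 ∧ g' * g' = 1 := by
    by_cases h3 : g * g = 1
    · exact ⟨g, hgX, hgR, hg1, h3⟩
    · exact ⟨g * g, mul_mem hgX hgX, mul_mem hgR hgR, h3, RR_four h2 hsk hgR⟩
  obtain ⟨k', u', hu', h3⟩ := exists_frame hB h2 g'.2.2 (fun x => by
    change (g' * g').1 x = x
    rw [hgg']; rfl)
  have h4 := rank_le hB hu hsk hgR' hu' h3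
  refine ⟨k', ?_, by omega, u', hu', g', hgX', h3⟩
  by_contra h5
  obtain rfl : k' = 0 := by omega
  apply hg1'
  apply Subtype.ext
  ext x
  rw [h3, Fin.sum_univ_zero, add_zero]
  rfl

/-- an isometry which is trivial on `e^⊥` is a transvection -/
theorem transv_form (hB : HForm B) {e : V} (he : e ≠ 0) (hee : B e e = 0) {g : SIso B}
    (hg : ∀ x, B e x = 0 → g.1 x = x) : ∃ a : F, ∀ x, g.1 x = x + (a * B e x) • e := by
  obtain ⟨f, -, hf⟩ := exists_hyp hB he hee
  set v := g.1 f - f with hv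
  have h1 : ∀ x, B e x = 0 → B v x = 0 := by
    intro x hx
    rw [hv, map_sub, LinearMap.sub_apply, sub_eq_zero, ← g.2.2 f x, hg x hx]
  have h2 : v = σ (B v f) • e := by
    rw [← sub_eq_zero]
    refine hB.eq_zero fun y => ?_
    have h3 := h1 (y - B e y • f) (by rw [map_sub, smul_right, hf, mul_one, sub_self])
    rw [map_sub, smul_right] at h3
    rw [map_sub, LinearMap.sub_apply, smul_left, hB.invol]
    linear_combination h3
  refine ⟨σ (B v f), fun x => ?_⟩
  have h3 := hg (x - B e x • f) (by rw [map_sub, smul_right, hf, mul_one, sub_self])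
  have h4 : g.1 f = f + v := by rw [hv]; abel
  rw [map_sub, map_smul, h4, h2] at h3
  rw [sub_eq_iff_eq_add] at h3
  rw [h3, mul_comm (σ (B v f)), mul_smul, ← h2]
  module

/-- **the group `C_{Q_e}(t)` for an involution of rank 2, `e = u 0 + u 1`** -/
theorem card_two {q : ℕ} (hF : Fintype.card F = q ^ 2) (hB : HForm B) (h2 : (2 : F) = 0) {u : Fin 2 → V}
    (hu : Frame B u) {t : SIso B} (ht : ∀ x, t.1 x = x + ∑ i, B (u i) x • u i) :
    q ^ (2 * (finrank F V - 2)) ≤
      Nat.card (centralizer ({t} : Set (SIso B)) ⊓ RR B (fun _ : Fin 1 => u 0 + u 1) 1 : Subgroup (SIso B)) := by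
  classical
  have := finite_SIso B
  have : Finite V := Module.finite_of_finite F
  have hq := two_le_q hF
  set e : V := u 0 + u 1 with he
  set D : Subgroup (SIso B) := centralizer ({t} : Set (SIso B)) ⊓ RR B (fun _ : Fin 1 => e) 1 with hD
  have h00 : B (u 0) (u 0) = 0 := hu.ti 0 0
  have h01 : B (u 0) (u 1) = 0 := hu.ti 0 1
  have h10 : B (u 1) (u 0) = 0 := hu.ti 1 0
  have h11 : B (u 1) (u 1) = 0 := hu.ti 1 1
  have hee : B e e = 0 := by
    rw [he]
    simp only [map_add, LinearMap.add_apply, h00, h01, h10, h11, add_zero]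
  have hBe : ∀ x, B e x = B (u 0) x + B (u 1) x := fun x => by rw [he, map_add, LinearMap.add_apply]
  have ht2 : ∀ x, t.1 x = x + (B (u 0) x • u 0 + B (u 1) x • u 1) := fun x => by rw [ht, Fin.sum_univ_two]
  have hdb : ∀ a : F, a + a = 0 := fun a => by rw [← two_mul, h2, zero_mul]
  obtain ⟨f, hf⟩ := exists_dual_vec hB hu
  have hf00 : B (u 0) (f 0) = 1 := by rw [hf, if_pos rfl]
  have hf11 : B (u 1) (f 1) = 1 := by rw [hf, if_pos rfl]
  have hf10 : B (u 1) (f 0) = 0 := by rw [hf, if_neg (by decide)]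
  have hf01 : B (u 0) (f 1) = 0 := by rw [hf, if_neg (by decide)]
  have hef : B e (f 0) = 1 := by rw [hBe, hf00, hf10, add_zero]
  have hfe : B (f 0) e = 1 := by rw [sw hB e, hef, map_one]
  -- the parameters
  let Fx := {a : F // a ^ q = a}
  let P := perp B (W F u 2) × Fx × Fx
  have hfix : ∀ a : Fx, σ a.1 = a.1 := fun a => by rw [sig_eq hF hB.ne_id hB.invol, a.2]
  let w : P → V := fun p => (p.1 : V) + p.2.1.1 • (f 0 + f 1)
  have hw0 : ∀ p, B (u 0) (w p) = p.2.1.1 := by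
    intro p
    have h3 : B (u 0) (p.1 : V) = 0 := hB.swap_zero (mem_perp_W.1 p.1.2 0 (by decide))
    change B (u 0) ((p.1 : V) + p.2.1.1 • (f 0 + f 1)) = _
    rw [map_add, h3, smul_right, map_add, hf00, hf01, zero_add, add_zero, mul_one]
  have hw1 : ∀ p, B (u 1) (w p) = p.2.1.1 := by
    intro p
    have h3 : B (u 1) (p.1 : V) = 0 := hB.swap_zero (mem_perp_W.1 p.1.2 1 (by decide))
    change B (u 1) ((p.1 : V) + p.2.1.1 • (f 0 + f 1)) = _
    rw [map_add, h3, smul_right, map_add, hf10, hf11, zero_add, zero_add, mul_one]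
  have hwe : ∀ p, B e (w p) = 0 := fun p => by rw [hBe, hw0, hw1, hdb]
  have hμ : ∀ v : V, ∃ c : F, c + σ c = -B v v := fun v => exists_trace hB (by rw [map_neg, self_fix hB])
  choose μ hμ using hμ
  have hS : ∀ p : P, ∃ g : SIso B, ∀ x, g.1 x = x + B e x • w p + ((μ (w p) + p.2.2.1) * B e x - B (w p) x) • e := by
    intro p
    refine exists_siegel hB hee (hwe p) ?_
    rw [map_add, hfix]
    linear_combination hμ (w p) + hdb p.2.2.1
  choose S hS using hS
  have hSm : ∀ p, S p ∈ D := by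
    intro p
    refine Subgroup.mem_inf.2 ⟨Subgroup.mem_centralizer_singleton_iff.2 ?_, fun _ => ?_, fun x hx => ?_⟩
    · apply Subtype.ext
      ext x
      change (S p).1 (t.1 x) = t.1 ((S p).1 x)
      have hwu0 : B (w p) (u 0) = p.2.1.1 := by rw [sw hB (u 0), hw0, hfix]
      have hwu1 : B (w p) (u 1) = p.2.1.1 := by rw [sw hB (u 1), hw1, hfix]
      have heu0 : B e (u 0) = 0 := by rw [hBe, h00, h10, add_zero]
      have heu1 : B e (u 1) = 0 := by rw [hBe, h01, h11, add_zero]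
      have h0e : B (u 0) e = 0 := hB.swap_zero heu0
      have h1e : B (u 1) e = 0 := hB.swap_zero heu1
      rw [hS p (t.1 x), ht2 ((S p).1 x), hS p x, ht2 x]
      simp only [map_add, smul_right, hwu0, hwu1, h0e, h1e, hw0, hw1, mul_zero, add_zero, hBe, h00, h01, h10, h11]
      rw [← sub_eq_zero, he]
      match_scalars <;> first
        | ring1
        | linear_combination -(p.2.1.1 * (B (u 0) x + B (u 1) x)) * h2
    · change (S p).1 e = e
      have h3 : B (w p) e = 0 := hB.swap_zero (hwe p)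
      rw [hS, hee, h3, zero_smul, mul_zero, sub_zero, zero_smul, add_zero, add_zero]
    · have h3 : B e x = 0 := hB.swap_zero (mem_perp_W.1 hx 0 (by decide))
      rw [hS, h3, zero_smul, add_zero, add_sub_cancel_left]
      exact Submodule.smul_mem _ _ (mem_W (fun _ : Fin 1 => e) (l := 0) (by decide))
  let Φ : P → D × F := fun p => (⟨S p, hSm p⟩, B (f 0) (w p))
  have hΦ : Function.Injective Φ := by
    intro p p' h3
    have h4 : ∀ x, (S p).1 x = (S p').1 x := fun x => congrArg (fun y : D × F => y.1.1.1 x) h3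
    have h5 : B (f 0) (w p) = B (f 0) (w p') := congrArg Prod.snd h3
    have h6 := h4 (f 0)
    rw [hS, hS, hef, one_smul, one_smul, mul_one, mul_one, add_assoc (f 0) (w p), add_assoc (f 0) (w p')] at h6
    have h7 := add_left_cancel h6
    have h8 := congrArg (B (f 0)) h7
    rw [map_add (B (f 0)) (w p), map_add (B (f 0)) (w p'), smul_right, smul_right, hfe, mul_one, mul_one, h5] at h8
    have h9 := add_left_cancel h8
    rw [h9] at h7
    have h10 := add_right_cancel h7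
    rw [h10] at h9
    have h11 : p.2.2 = p'.2.2 := Subtype.ext (by linear_combination h9)
    have h12 : p.2.1 = p'.2.1 := Subtype.ext (by rw [← hw0 p, ← hw0 p', h10])
    have h13 : p.1 = p'.1 := by
      change (p.1 : V) + p.2.1.1 • (f 0 + f 1) = (p'.1 : V) + p'.2.1.1 • (f 0 + f 1) at h10
      rw [h12] at h10
      exact Subtype.ext (add_right_cancel h10)
    exact Prod.ext h13 (Prod.ext h12 h11)
  have h3 := Nat.card_le_card_of_injective Φ hΦ
  have h4 : Nat.card (perp B (W F u 2)) = q ^ (2 * (finrank F V - 2)) := by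
    have h5 := finrank_perp hB (W F u 2)
    rw [finrank_W hu.li le_rfl] at h5
    rw [Module.natCard_eq_pow_finrank (K := F), Nat.card_eq_fintype_card, hF, ← pow_mul]
    congr 2
    omega
  rw [Nat.card_prod, Nat.card_prod, Nat.card_prod, h4, Cfsg.Agent.LieClassical.HermBasic.card_fixed hF,
    Nat.card_eq_fintype_card (α := F), hF, pow_two, ← mul_assoc, ← mul_assoc] at h3
  exact Nat.le_of_mul_le_mul_right (Nat.le_of_mul_le_mul_right h3 (by omega)) (by omega)

/-- **Rank 2.** -/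
theorem two_one {q : ℕ} (hF : Fintype.card F = q ^ 2) (hB : HForm B) (h2 : (2 : F) = 0) (hcl : ClassLe B q)
    (hn : 5 ≤ finrank F V) {X : Subgroup (SIso B)} (hX : Small X) {u : Fin 2 → V} (hu : Frame B u) {t : SIso B}
    (htX : t ∈ X) (ht : ∀ x, t.1 x = x + ∑ i, B (u i) x • u i) :
    ∃ (e : V) (g : SIso B) (a : F), e ≠ 0 ∧ B e e = 0 ∧ g ∈ X ∧ a ≠ 0 ∧ ∀ x, g.1 x = x + (a * B e x) • e := by
  have := finite_SIso B
  have hq := two_le_q hF
  set D : Subgroup (SIso B) := centralizer ({t} : Set (SIso B)) ⊓ RR B (fun _ : Fin 1 => u 0 + u 1) 1 with hD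
  have he : u 0 + u 1 ≠ 0 := by
    intro h
    have h3 := Fintype.linearIndependent_iff.1 hu.li (fun _ => 1) (by rw [Fin.sum_univ_two, one_smul, one_smul, h]) 0
    exact one_ne_zero h3
  have hee : B (u 0 + u 1) (u 0 + u 1) = 0 := by
    simp only [map_add, LinearMap.add_apply, hu.ti, add_zero]
  by_contra hcon
  have h3 : Nat.card (X ⊓ D : Subgroup (SIso B)) ≤ q ^ (finrank F V - 2) := by
    refine Cfsg.Agent.H999.IFU.card_le_of_no_transv hF hB he hee (fun g hg => ?_) (fun g hg x hx => ?_)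
      (fun g hg h4 => ?_)
    · exact hg.2.2.1 0
    · have h5 : x ∈ perp B (W F (fun _ : Fin 1 => u 0 + u 1) 1) := mem_perp_W.2 fun l _ => hB.swap_zero hx
      have h4 := hg.2.2.2 x h5
      rw [W_of_le _ le_rfl, Set.range_const, Submodule.mem_span_singleton] at h4
      obtain ⟨c, hc⟩ := h4
      exact ⟨c, by rw [hc]; abel⟩
    · obtain ⟨a, ha⟩ := transv_form hB he hee h4
      by_contra h5
      refine hcon ⟨u 0 + u 1, g, a, he, hee, hg.1, ?_, ha⟩
      rintro rfl
      apply h5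
      apply Subtype.ext
      ext x
      rw [ha, zero_mul, zero_smul, add_zero]
      rfl
  have h4 := card_two hF hB h2 hu ht
  rw [← hD] at h4
  have h5 : X.relIndex D * Nat.card (X ⊓ D : Subgroup (SIso B)) = Nat.card D := by
    have h7 := relIndex_mul_relIndex ⊥ (X ⊓ D) D bot_le inf_le_right
    rwa [relIndex_bot_left, relIndex_bot_left, inf_relIndex_right, mul_comm] at h7
  have h6 : q ^ (finrank F V - 2) ≤ X.relIndex D := by
    by_contra h7
    push Not at h7
    have h8 : X.relIndex D * Nat.card (X ⊓ D : Subgroup (SIso B)) < q ^ (finrank F V - 2) * q ^ (finrank F V - 2) :=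
      Nat.mul_lt_mul_of_lt_of_le h7 h3 (by positivity)
    rw [h5, ← pow_add, ← two_mul] at h8
    omega
  have h7 := hX t htX (tu_sq h2 hu ht) (tu_ne hB (by omega) hu ht) D (fun c hc => by
    exact Subgroup.mem_centralizer_singleton_iff.1 hc.1)
  have h8 := hcl 2 u hu t ht
  have h9 := Nat.pow_le_pow_left h6 5
  rw [← pow_mul] at h9
  have h10 : q ^ ((finrank F V - 2) * 5) * q ^ 2 < (q + 1) ^ 2 * q ^ (2 * 2 * (finrank F V - 2)) :=
    lt_of_lt_of_le (Nat.mul_lt_mul_of_pos_right (lt_of_le_of_lt h9 h7) (by positivity)) h8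
  have h11 : q + 1 ≤ q ^ 2 := by nlinarith
  have h12 := Nat.mul_le_mul_right (q ^ (2 * 2 * (finrank F V - 2))) (Nat.pow_le_pow_left h11 2)
  rw [← pow_mul, ← pow_add] at h12
  rw [← pow_add] at h10
  have h13 := lt_of_lt_of_le h10 h12
  rw [Nat.pow_lt_pow_iff_right (by omega)] at h13
  omega

/-- **Transvections.** -/
theorem exists_transv {q : ℕ} (hF : Fintype.card F = q ^ 2) (hB : HForm B) (h2 : (2 : F) = 0) (hcl : ClassLe B q)
    (hn : 5 ≤ finrank F V) {X : Subgroup (SIso B)} (hX : Small X) {t : SIso B} (htX : t ∈ X) (ht1 : t ≠ 1)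
    (htt : t * t = 1) :
    ∃ (e : V) (g : SIso B) (a : F), e ≠ 0 ∧ B e e = 0 ∧ g ∈ X ∧ a ≠ 0 ∧ ∀ x, g.1 x = x + (a * B e x) • e := by
  have key : ∀ k : ℕ, 1 ≤ k → ∀ (u : Fin k → V), Frame B u → ∀ t ∈ X, (∀ x, t.1 x = x + ∑ i, B (u i) x • u i) →
      ∃ (e : V) (g : SIso B) (a : F), e ≠ 0 ∧ B e e = 0 ∧ g ∈ X ∧ a ≠ 0 ∧ ∀ x, g.1 x = x + (a * B e x) • e := by
    intro k
    induction k using Nat.strong_induction_on with
    | _ k ih =>
      intro hk u hu t htX ht
      rcases (show k = 1 ∨ k = 2 ∨ 3 ≤ k by omega) with rfl | rfl | hk3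
      · refine ⟨u 0, t, 1, hu.li.ne_zero 0, hu.ti 0 0, htX, one_ne_zero, fun x => ?_⟩
        rw [ht, Fin.sum_univ_one, one_mul]
      · exact two_one hF hB h2 hcl hn hX hu htX ht
      · obtain ⟨k', h1, h3, u', hu', t', ht', h4⟩ := descent hF hB h2 hcl hX hk3 hu htX ht
        exact ih k' h3 h1 u' hu' t' ht' h4
  obtain ⟨k, u, hu, ht⟩ := exists_frame hB h2 t.2.2 (fun x => by
    change (t * t).1 x = x
    rw [htt]; rfl)
  refine key k ?_ u hu t htX ht
  by_contra h5
  obtain rfl : k = 0 := by omega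
  apply ht1
  apply Subtype.ext
  ext x
  rw [ht, Fin.sum_univ_zero, add_zero]
  rfl

end

end Cfsg.Agent.H406.IF
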