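import Cfsg.Agent.H450.UF.Count
import Cfsg.Agent.H450.UF.Geo

/-!
# S5719, unitary groups in characteristic 2 (helper406): involutions and Siegel elements

* `exists_siegel` : the element `x ↦ x + B e x • w + (μ * B e x - B w x) • e`;
* `exists_frame` : an isometry `t` with `t ^ 2 = 1` in characteristic 2 is `x ↦ x + ∑ i, B (u i) x • u i` for a totally
  isotropic frame `u`.
-/

set_option autoImplicit false
set_option linter.unusedSectionVars false

namespace Cfsg.Agent.H406.IF

open Module Cfsg.Agent.H91.U Cfsg.Agent.H450.UF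

variable {F V : Type*} [Field F] [AddCommGroup V] [Module F V] {σ : F →+* F} {B : V →ₛₗ[σ] V →ₗ[F] F}

/-- **Siegel elements** -/
theorem exists_siegel [FiniteDimensional F V] (hB : HForm B) {e w : V} {μ : F} (he : B e e = 0) (hw : B e w = 0)
    (hμ : μ + σ μ + B w w = 0) :
    ∃ g : SIso B, ∀ x, g.1 x = x + B e x • w + (μ * B e x - B w x) • e := by
  have hwe : B w e = 0 := hB.swap_zero hw
  let T1 : V →ₗ[F] V := LinearMap.transvection (-(B w)) e
  let T2 : V →ₗ[F] V := LinearMap.transvection (B e) (w + μ • e)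
  have h1 : ∀ x, T1 x = x + (-(B w x)) • e := fun x => by
    rw [LinearMap.transvection.apply]; rfl
  have h2 : ∀ x, T2 x = x + (B e x) • (w + μ • e) := fun x => by
    rw [LinearMap.transvection.apply]
  have hT : ∀ x, (T2 ∘ₗ T1) x = x + B e x • w + (μ * B e x - B w x) • e := by
    intro x
    rw [LinearMap.comp_apply, h2, h1, map_add, map_smul, he, smul_zero, add_zero]
    module
  have hdet : LinearMap.det (T2 ∘ₗ T1) = 1 := by
    rw [LinearMap.det_comp, LinearMap.transvection.det, LinearMap.transvection.det, LinearMap.neg_apply, map_add,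
      map_smul, hw, he, hwe, smul_zero, add_zero, add_zero, neg_zero, add_zero, mul_one]
  have hunit : IsUnit (LinearMap.det (T2 ∘ₗ T1)) := by
    rw [hdet]; exact isUnit_one
  let g : V ≃ₗ[F] V := LinearEquiv.ofIsUnitDet (f := T2 ∘ₗ T1) (v := Module.finBasis F V) (v' := Module.finBasis F V) (by
    rw [LinearMap.det_toMatrix]
    exact hunit)
  have hg : ∀ x, g x = x + B e x • w + (μ * B e x - B w x) • e := hT
  refine ⟨⟨g, mem_SIso_of (fun x y => ?_) hdet⟩, hg⟩
  have hxe : B x e = σ (B e x) := sw hB e x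
  have hxw : B x w = σ (B w x) := sw hB w x
  rw [hg, hg]
  simp only [map_add, LinearMap.add_apply, smul_left, smul_right, he, hw, hwe, hxe, hxw, map_mul, map_sub]
  linear_combination (σ (B e x) * B e y) * hμ

/-- the isometry `t` with `t ^ 2 = 1` : `t - 1` is selfadjoint with totally isotropic image -/
theorem invol_adj (h2 : (2 : F) = 0) {t : V ≃ₗ[F] V} (ht : ∀ x y, B (t x) (t y) = B x y) (htt : ∀ x, t (t x) = x)
    (x y : V) : B (t x - x) (t y - y) = 0 ∧ B x (t y - y) = B (t x - x) y := by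
  have hx : B x (t y) = B (t x) y := by rw [← ht x, htt]
  have h3 : ∀ a : F, a + a = 0 := fun a => by rw [← two_mul, h2, zero_mul]
  simp only [map_sub, LinearMap.sub_apply, ht, hx]
  refine ⟨?_, trivial⟩
  linear_combination h3 (B x y) - h3 (B (t x) y)

/-- **An involution of a unitary group in characteristic 2.** -/
theorem exists_frame [Finite F] [FiniteDimensional F V] (hB : HForm B) (h2 : (2 : F) = 0) {t : V ≃ₗ[F] V}
    (ht : ∀ x y, B (t x) (t y) = B x y) (htt : ∀ x, t (t x) = x) :
    ∃ (k : ℕ) (u : Fin k → V), Frame B u ∧ ∀ x, t x = x + ∑ i, B (u i) x • u i := by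
  classical
  let N : V →ₗ[F] V := (t : V →ₗ[F] V) - LinearMap.id
  have hN : ∀ x, N x = t x - x := fun x => rfl
  have hadj : ∀ x y, B x (N y) = B (N x) y := fun x y => (invol_adj h2 ht htt x y).2
  have hti : ∀ x y, B (N x) (N y) = 0 := fun x y => (invol_adj h2 ht htt x y).1
  obtain ⟨Y, hY⟩ := Submodule.exists_isCompl (LinearMap.ker N)
  let h : Y →ₛₗ[σ] Y →ₗ[F] F := (B.comp Y.subtype).compl₂ (N ∘ₗ Y.subtype)
  have hh : ∀ x y : Y, h x y = B (x : V) (N (y : V)) := fun x y => rfl
  have hdec : ∀ x : V, ∃ a : V, N a = 0 ∧ ∃ b : Y, a + b = x := by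
    intro x
    have : x ∈ LinearMap.ker N ⊔ Y := by rw [hY.sup_eq_top]; trivial
    obtain ⟨a, ha, b, hb, e⟩ := Submodule.mem_sup.1 this
    exact ⟨a, ha, ⟨b, hb⟩, e⟩
  have hs : ∀ x y : Y, σ (h x y) = h y x := by
    intro x y
    rw [hh, hh, hadj, ← sw hB]
  have hl : ∀ x : Y, (∀ y, h x y = 0) → x = 0 := by
    intro x hx
    have h3 : N (x : V) = 0 := by
      refine hB.eq_zero fun y => ?_
      obtain ⟨a, ha, b, rfl⟩ := hdec y
      rw [map_add, ← hadj, ← hadj, ha, map_zero, zero_add]
      exact hx b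
    have h4 : (x : V) ∈ LinearMap.ker N ⊓ Y := ⟨h3, x.2⟩
    rw [hY.inf_eq_bot] at h4
    exact Subtype.ext h4
  have hf : HForm h := ⟨⟨hl, fun y hy => hl y fun x => by rw [← hs, hy, map_zero]⟩, ⟨hs⟩, hB.invol, hB.ne_id⟩
  obtain ⟨b, hb⟩ := exists_orthonormal_basis hf
  refine ⟨finrank F Y, fun i => N (b i : V), ⟨?_, fun i l => hti _ _⟩, ?_⟩
  · rw [Fintype.linearIndependent_iff]
    intro c hc i
    have h3 : B (b i : V) (∑ l, c l • N (b l : V)) = c i := by
      rw [map_sum]
      simp only [smul_right, ← hh, hb, mul_ite, mul_one, mul_zero, Finset.sum_ite_eq, Finset.mem_univ, if_true]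
    rw [← h3, hc, map_zero]
  · intro x
    obtain ⟨a, ha, y, rfl⟩ := hdec x
    have h3 : ∀ i, B (N (b i : V)) (a + (y : V)) = h (b i) y := by
      intro i
      rw [map_add, ← hadj, ← hadj, ha, map_zero, zero_add, hh]
    have h4 : N (y : V) = ∑ i, h (b i) y • N (b i : V) := by
      conv_lhs => rw [← b.sum_repr y]
      rw [Submodule.coe_sum, map_sum]
      refine Finset.sum_congr rfl fun i _ => ?_
      rw [Submodule.coe_smul, map_smul]
      congr 1
      conv_rhs => rw [← b.sum_repr y]
      rw [map_sum]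
      simp only [smul_right, hb, mul_ite, mul_one, mul_zero, Finset.sum_ite_eq, Finset.mem_univ, if_true]
    simp only [h3]
    rw [← h4]
    have h5 : N (a + (y : V)) = N (y : V) := by rw [map_add, ha, zero_add]
    rw [← h5, hN]
    abel

end Cfsg.Agent.H406.IF
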