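import Cfsg.Agent.H406.IF.Desc
import Cfsg.Agent.H847.IF.ClassU
import Cfsg.Agent.H847.IF.Lift
import Cfsg.Agent.H999.IF.UCAbs
import Cfsg.Agent.H91.U.Std
import Cfsg.Agent.H209.IF.Kill
import Cfsg.Agent.CpAut.Fix

/-!
# S5719, row `PSU_n(q)`, `q` even, `n ≥ 5`, point stabiliser of even order (helper406)

Pieces: descent to transvections (`Desc.lean`), class bound `H847.IF.class_le`, `H999.IFU.transv_false_abs`.
-/

set_option autoImplicit false
set_option linter.unusedSectionVars false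

namespace Cfsg.Agent.H406.IF

open Module Subgroup Cfsg Cfsg.Agent.H91.U Cfsg.Agent.H450.UF Cfsg.Agent.H209.Fxy

/-- **The abstract row.** -/
theorem false_of_even {F V : Type*} [Field F] [Fintype F] [AddCommGroup V] [Module F V] [FiniteDimensional F V]
    {σ : F →+* F} {B : V →ₛₗ[σ] V →ₗ[F] F} {q : ℕ} (hF : Fintype.card F = q ^ 2) (h2 : (2 : F) = 0) (hB : HForm B)
    (hn : 5 ≤ finrank F V) {T : Type*} [Group T] [Finite T] [IsSimpleGroup T] {A : Subgroup T}
    {Γ : Subgroup (MulAut T)} (h : IF A Γ) (hna : ∃ a b : T, a * b ≠ b * a) (pi : SIso B →* T)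
    (hpi : Function.Surjective pi) (hker : ∀ g, pi g = 1 → g * g = 1 → g = 1) {a : T} (haA : a ∈ A)
    (hao : orderOf a = 2) : False := by
  have := finite_SIso B
  have hX : Small (A.comap pi) := by
    intro t ht htt ht1 C hC
    exact Cfsg.Agent.H847.IF.lift_E2 h hna pi hpi ht (fun h1 => ht1 (hker t h1 htt)) (by rw [htt, map_one])
      (fun c hc => by rw [hC c hc])
  have hcl : ClassLe B q := fun k u hu t ht => Cfsg.Agent.H847.IF.class_le hF hB h2 hu ht
  -- an involution
  obtain ⟨t, htX, ht1, htt⟩ : ∃ t ∈ A.comap pi, t ≠ 1 ∧ t * t = 1 := by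
    have ha1 : a ≠ 1 := by
      rintro rfl
      rw [orderOf_one] at hao
      omega
    have ha2 : a * a = 1 := by
      rw [← pow_two]
      exact hao ▸ pow_orderOf_eq_one a
    obtain ⟨x, hx⟩ := hpi a
    have hm : ¬ 2 ∣ Nat.card pi.ker := by
      intro hd
      obtain ⟨y, hy⟩ := exists_prime_orderOf_dvd_card' (G := pi.ker) 2 hd
      have h1 : y ^ 2 = 1 := hy ▸ pow_orderOf_eq_one y
      have h3 : (y : SIso B) * y = 1 := by
        rw [← pow_two]
        exact_mod_cast congrArg Subtype.val h1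
      have h4 := hker y y.2 h3
      have h5 : y = 1 := Subtype.ext h4
      rw [h5, orderOf_one] at hy
      omega
    obtain ⟨j, hj⟩ : ∃ j, Nat.card pi.ker = 2 * j + 1 := by
      have h1 := Nat.two_dvd_ne_zero.1 hm
      exact ⟨Nat.card pi.ker / 2, by omega⟩
    have h4 : pi (x ^ Nat.card pi.ker) = a := by
      rw [map_pow, hx, hj, pow_succ, pow_mul, pow_two, ha2, one_pow, one_mul]
    refine ⟨x ^ Nat.card pi.ker, ?_, ?_, ?_⟩
    · rw [mem_comap, h4]
      exact haA
    · intro h3
      rw [h3, map_one] at h4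
      exact ha1 h4.symm
    · have h3 : x * x ∈ pi.ker := by
        rw [MonoidHom.mem_ker, map_mul, hx, ha2]
      have h5 : (⟨x * x, h3⟩ : pi.ker) ^ Nat.card pi.ker = 1 := pow_card_eq_one'
      have h6 : (x * x) ^ Nat.card pi.ker = 1 := congrArg Subtype.val h5
      rw [← pow_two] at h6
      rw [← pow_add, ← two_mul, pow_mul]
      exact h6
  obtain ⟨e, g, c, he, hee, hg, hc, hgc⟩ := exists_transv hF hB h2 hcl hn hX htX ht1 htt
  exact Cfsg.Agent.H999.IFU.transv_false_abs hF h2 hB hn h hna pi hpi he hee hc hgc hg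

/-- **The row `PSU_n(q)`, `q` even, `n ≥ 5`.** -/
theorem psu_even (F : Type) [Field F] [Fintype F] (n q : ℕ) (hF : Fintype.card F = q ^ 2) (he : Even q) (hn : 5 ≤ n)
    (hs : IsSimpleGroup (PSU n F q)) : KillE (PSU n F q) := by
  rintro A Γ h ⟨a, haA, hao⟩
  have hfin : Finite (PSU n F q) := Quotient.finite _
  have hna : ∃ a b : PSU n F q, a * b ≠ b * a := by
    by_contra hcon
    push Not at hcon
    exact Cfsg.Agent.CpAut.Fix.not_comm_quot (H := SU n F q) (hs := hs) ⟨⟨hcon⟩⟩
  have h2 : (2 : F) = 0 := by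
    have h3 : Fintype.card F % 2 = 0 := by
      rw [hF, ← Nat.even_iff]
      exact he.pow_of_ne_zero two_ne_zero
    have h4 := FiniteField.even_card_iff_char_two.2 h3
    have h5 : ((ringChar F : ℕ) : F) = 0 := ringChar.Nat.cast_ringChar
    rw [h4] at h5
    exact_mod_cast h5
  have hn' : 5 ≤ finrank F (Fin n → F) := by rw [finrank_std]; exact hn
  refine false_of_even hF h2 (hform_sB hF n) hn' h hna (Cfsg.Agent.H91.U.pi hF n) (Cfsg.Agent.H91.U.pi_surjective hF n)
    (fun g hg hgg => ?_) haA hao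
  obtain ⟨c, hc⟩ := scalar_of_pi_eq_one hF (by omega) g hg
  have hcc : c * c = 1 := by
    have h3 : (g * g).1 (fun _ => 1) = c • c • (fun _ : Fin n => (1 : F)) := by
      change g.1 (g.1 _) = _
      rw [hc, hc]
    rw [hgg] at h3
    have h4 := congrFun h3 ⟨0, by omega⟩
    change (1 : F) = c * (c * 1) at h4
    rw [mul_one] at h4
    exact h4.symm
  have hc1 : c = 1 := by
    have h3 : (c - 1) * (c - 1) = 0 := by linear_combination hcc + (1 - c) * h2
    exact sub_eq_zero.1 (mul_self_eq_zero.1 h3)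
  apply Subtype.ext
  ext1 x
  rw [hc, hc1, one_smul]
  rfl

end Cfsg.Agent.H406.IF
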