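import Cfsg.Agent.H406.IF.Herm

/-!
# S5719, unitary groups in characteristic 2 (helper406): the groups `RR B u s`

`RR B u s` : the elements of `SIso B` which fix the frame `u` and act trivially on `Z^⊥ / Z`, `Z = ⟨u 0, ..., u (s-1)⟩`.
-/

set_option autoImplicit false
set_option linter.unusedSectionVars false

namespace Cfsg.Agent.H406.IF

open Module Cfsg.Agent.H91.U Cfsg.Agent.H450.UF

variable {F V : Type*} [Field F] [AddCommGroup V] [Module F V] {σ : F →+* F} {B : V →ₛₗ[σ] V →ₗ[F] F} {k : ℕ}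

theorem fix_W {u : Fin k → V} {g : V ≃ₗ[F] V} (hg : ∀ i, g (u i) = u i) {s : ℕ} {z : V} (hz : z ∈ W F u s) : g z = z := by
  have h1 : W F u s ≤ LinearMap.ker ((g : V →ₗ[F] V) - LinearMap.id) := W_le_iff.2 fun l _ => by
    rw [LinearMap.mem_ker, LinearMap.sub_apply, LinearMap.id_apply]
    change g (u l) - u l = 0
    rw [hg, sub_self]
  exact sub_eq_zero.1 (h1 hz)

variable (B) in
/-- the elements fixing `u` which act trivially on `Z^⊥ / Z`, `Z = ⟨u 0, ..., u (s-1)⟩` -/
def RR (u : Fin k → V) (s : ℕ) : Subgroup (SIso B) where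
  carrier := {g | (∀ i, g.1 (u i) = u i) ∧ ∀ x ∈ perp B (W F u s), g.1 x - x ∈ W F u s}
  mul_mem' := fun {g h} hg hh => ⟨fun i => by
      change g.1 (h.1 (u i)) = u i
      rw [hh.1, hg.1], fun x hx => by
      have h1 : (g * h).1 x - x = (h.1 x - x) + (g.1 x - x) := by
        change g.1 (h.1 x) - x = _
        have h2 : g.1 (h.1 x - x) = h.1 x - x := fix_W hg.1 (hh.2 x hx)
        rw [map_sub] at h2
        rw [← h2]
        abel
      rw [h1]
      exact add_mem (hh.2 x hx) (hg.2 x hx)⟩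
  one_mem' := ⟨fun i => rfl, fun x hx => by
    change x - x ∈ _
    rw [sub_self]
    exact zero_mem _⟩
  inv_mem' := fun {g} hg => ⟨fun i => by
      change g.1.symm (u i) = u i
      rw [LinearEquiv.symm_apply_eq, hg.1], fun x hx => by
      have h1 : g.1.symm (g.1 x - x) = g.1 x - x := by
        rw [LinearEquiv.symm_apply_eq, fix_W hg.1 (hg.2 x hx)]
      have h2 : (g⁻¹).1 x - x = -(g.1 x - x) := by
        change g.1.symm x - x = _
        rw [map_sub, LinearEquiv.symm_apply_apply] at h1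
        rw [← h1]
        abel
      rw [h2]
      exact neg_mem (hg.2 x hx)⟩

theorem mem_RR {u : Fin k → V} {s : ℕ} {g : SIso B} :
    g ∈ RR B u s ↔ (∀ i, g.1 (u i) = u i) ∧ ∀ x ∈ perp B (W F u s), g.1 x - x ∈ W F u s := Iff.rfl

/-- the elements of `RR B u s` commute with `t_u` -/
theorem RR_comm {u : Fin k → V} {t g : SIso B} (ht : ∀ x, t.1 x = x + ∑ i, B (u i) x • u i)
    (hg : ∀ i, g.1 (u i) = u i) : g * t = t * g := by
  apply Subtype.ext
  ext x
  change g.1 (t.1 x) = t.1 (g.1 x)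
  rw [ht, ht, map_add, map_sum]
  congr 1
  refine Finset.sum_congr rfl fun i _ => ?_
  rw [map_smul, hg]
  congr 1
  rw [← g.2.2 (u i) x, hg]

theorem smul_sub_mem {u : Fin k → V} {s : ℕ} {g : SIso B} (hg : g ∈ RR B u s) (x : V) :
    g.1 x - x ∈ perp B (W F u k) := by
  rw [mem_perp_W]
  intro l _
  rw [map_sub, LinearMap.sub_apply, sub_eq_zero, ← g.2.2 x (u l), hg.1]

/-- `(g - 1) ^ 3 = 0` for `g ∈ RR B u s` -/
theorem RR_cube {u : Fin k → V} {s : ℕ} (hsk : s ≤ k) {g : SIso B} (hg : g ∈ RR B u s) (x : V) :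
    g.1 (g.1 (g.1 x - x) - (g.1 x - x)) = g.1 (g.1 x - x) - (g.1 x - x) :=
  fix_W hg.1 (hg.2 _ (perp_anti (W_mono u hsk) (smul_sub_mem hg x)))

/-- in characteristic 2 the elements of `RR B u s` have order dividing 4 -/
theorem RR_four (h2 : (2 : F) = 0) {u : Fin k → V} {s : ℕ} (hsk : s ≤ k) {g : SIso B} (hg : g ∈ RR B u s) :
    (g * g) * (g * g) = 1 := by
  apply Subtype.ext
  ext x
  change g.1 (g.1 (g.1 (g.1 x))) = x
  have h3 : ∀ y : V, y + y = 0 := fun y => by rw [← two_smul F, h2, zero_smul]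
  have h4 := RR_cube hsk hg x
  have h5 := RR_cube hsk hg (g.1 x)
  simp only [map_sub] at h4 h5
  have e1 := h3 (g.1 (g.1 (g.1 x)))
  have e2 := h3 (g.1 (g.1 x))
  have e3 := h3 (g.1 x)
  have e4 := h3 x
  grind

/-- the dual vectors of a frame -/
theorem exists_dual_vec [Finite F] [FiniteDimensional F V] (hB : HForm B) {u : Fin k → V} (hu : Frame B u) :
    ∃ f : Fin k → V, ∀ i j, B (u j) (f i) = if i = j then 1 else 0 := by
  choose f hf using fun i : Fin k => exists_dual hB hu.li (fun j => if i = j then (1 : F) else 0)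
  refine ⟨f, fun i j => ?_⟩
  rw [sw hB (f i), hf]
  split_ifs
  · exact map_one _
  · exact map_zero _

section

variable [FiniteDimensional F V]

/-- a Siegel element in `RR B u s` -/
theorem exists_single [Finite F] (hB : HForm B) {u : Fin k → V} (hu : Frame B u) {s : ℕ} {j : Fin k} (hj : (j : ℕ) < s)
    {w : V} (hw : w ∈ perp B (W F u k)) :
    ∃ g ∈ RR B u s, ∀ x, g.1 x - x - B (u j) x • w ∈ W F u s := by
  have hw' : ∀ i, B w (u i) = 0 := fun i => mem_perp_W.1 hw i i.2
  obtain ⟨μ, hμ⟩ := exists_trace hB (s := -B w w) (by rw [map_neg, self_fix hB])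
  obtain ⟨g, hg⟩ := exists_siegel hB (hu.ti j j) (hB.swap_zero (hw' j)) (μ := μ) (by rw [hμ, neg_add_cancel])
  have hu' : u j ∈ W F u s := mem_W u hj
  refine ⟨g, ⟨fun i => ?_, fun x hx => ?_⟩, fun x => ?_⟩
  · rw [hg, hu.ti, hw', zero_smul, mul_zero, sub_zero, zero_smul, add_zero, add_zero]
  · rw [hg, hB.swap_zero (mem_perp_W.1 hx j hj), zero_smul, add_zero, add_sub_cancel_left]
    exact Submodule.smul_mem _ _ hu'
  · rw [hg, add_assoc, add_sub_cancel_left, add_sub_cancel_left]
    exact Submodule.smul_mem _ _ hu'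

theorem exists_multi [Finite F] (hB : HForm B) {u : Fin k → V} (hu : Frame B u) {s : ℕ} {f : Fin k → V}
    (hf : ∀ i j, B (u j) (f i) = if i = j then 1 else 0) {w : Fin k → V} (hw : ∀ i, w i ∈ perp B (W F u k)) (hsk : s ≤ k)
    (S : Finset (Fin k)) (hS : ∀ i ∈ S, (i : ℕ) < s) :
    ∃ g ∈ RR B u s, ∀ i, g.1 (f i) - f i - (if i ∈ S then w i else 0) ∈ W F u s := by
  classical
  induction S using Finset.induction_on with
  | empty =>
    refine ⟨1, one_mem _, fun i => ?_⟩
    rw [if_neg (Finset.notMem_empty i), sub_zero]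
    change f i - f i ∈ _
    rw [sub_self]
    exact zero_mem _
  | insert j S hj ih =>
    obtain ⟨g, hg, h1⟩ := ih fun i hi => hS i (Finset.mem_insert_of_mem hi)
    obtain ⟨h, hh, h2⟩ := exists_single hB hu (hS j (Finset.mem_insert_self j S)) (hw j)
    refine ⟨h * g, mul_mem hh hg, fun i => ?_⟩
    have h3 : (if i ∈ insert j S then w i else 0) = (if i = j then w j else 0) + (if i ∈ S then w i else 0) := by
      by_cases e : i = j
      · subst e
        rw [if_pos (Finset.mem_insert_self _ _), if_pos rfl, if_neg hj, add_zero]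
      · rw [if_neg e, zero_add]
        by_cases e' : i ∈ S
        · rw [if_pos e', if_pos (Finset.mem_insert_of_mem e')]
        · rw [if_neg e', if_neg (by rw [Finset.mem_insert]; tauto)]
    have h4 : h.1 (g.1 (f i) - f i) - (g.1 (f i) - f i) ∈ W F u s :=
      hh.2 _ (perp_anti (W_mono u hsk) (smul_sub_mem hg (f i)))
    have h5 := h2 (f i)
    have h6 := h1 i
    rw [hf, ite_smul, one_smul, zero_smul] at h5
    have h7 : (h * g).1 (f i) - f i - (if i ∈ insert j S then w i else 0) =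
        (h.1 (g.1 (f i) - f i) - (g.1 (f i) - f i)) + (h.1 (f i) - f i - (if i = j then w j else 0)) +
          (g.1 (f i) - f i - (if i ∈ S then w i else 0)) := by
      change h.1 (g.1 (f i)) - f i - _ = _
      rw [h3, map_sub]
      abel
    rw [h7]
    exact add_mem (add_mem h4 h5) h6

/-- a complement of `Z` in `U^⊥` -/
theorem exists_compl [Finite F] (hB : HForm B) {u : Fin k → V} (hu : Frame B u) {s : ℕ} (hsk : s ≤ k) :
    ∃ C : Submodule F V, C ≤ perp B (W F u k) ∧ C ⊓ W F u s = ⊥ ∧ finrank F C = finrank F V - k - s := by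
  obtain ⟨D, hD⟩ := Submodule.exists_isCompl (W F u s)
  have h0 : W F u s ≤ perp B (W F u k) := (W_mono u hsk).trans (ti_le_perp (hu.W_ti k))
  have h1 : W F u s ⊓ (D ⊓ perp B (W F u k)) = ⊥ := by
    rw [← inf_assoc, hD.inf_eq_bot, bot_inf_eq]
  have h2 : W F u s ⊔ (D ⊓ perp B (W F u k)) = perp B (W F u k) := by
    rw [← sup_inf_assoc_of_le D h0, hD.sup_eq_top, top_inf_eq]
  refine ⟨D ⊓ perp B (W F u k), inf_le_right, by rw [inf_comm]; exact h1, ?_⟩
  have h3 := Submodule.finrank_sup_add_finrank_inf_eq (W F u s) (D ⊓ perp B (W F u k))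
  rw [h1, h2, finrank_bot, finrank_W hu.li hsk] at h3
  have h4 := finrank_perp hB (W F u k)
  rw [finrank_W hu.li le_rfl] at h4
  omega

/-- **the order of `RR B u s`** -/
theorem card_RR [Fintype F] {q : ℕ} (hF : Fintype.card F = q ^ 2) (hB : HForm B) (h2 : (2 : F) = 0) {u : Fin k → V}
    (hu : Frame B u) {s : ℕ} (hs : 1 ≤ s) (hsk : s ≤ k) :
    q * (q ^ 2) ^ (s * (finrank F V - k - s)) ≤ Nat.card (RR B u s) := by
  classical
  have : Finite V := Module.finite_of_finite F
  have : Finite (V ≃ₗ[F] V) := Finite.of_injective (fun g : V ≃ₗ[F] V => (g : V → V)) DFunLike.coe_injective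
  obtain ⟨f, hf⟩ := exists_dual_vec hB hu
  obtain ⟨C, hC, hCZ, hCd⟩ := exists_compl hB hu hsk
  have hneg : ∀ a : F, -a = a := fun a => by
    have : a + a = 0 := by rw [← two_mul, h2, zero_mul]
    exact neg_eq_of_add_eq_zero_left this
  have hG : ∀ w : Fin s → C, ∃ g ∈ RR B u s, ∀ i : Fin s, g.1 (f (Fin.castLE hsk i)) - f (Fin.castLE hsk i) -
      (w i : V) ∈ W F u s := by
    intro w
    obtain ⟨g, hg, h⟩ := exists_multi hB hu hf (w := fun i => if h : (i : ℕ) < s then (w ⟨i, h⟩ : V) else 0) (fun i => by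
      split_ifs with h
      · exact hC (w ⟨i, h⟩).2
      · exact zero_mem _) hsk (Finset.univ.filter fun i : Fin k => (i : ℕ) < s) (fun i hi => (Finset.mem_filter.1 hi).2)
    refine ⟨g, hg, fun i => ?_⟩
    have h3 := h (Fin.castLE hsk i)
    have h4 : ((Fin.castLE hsk i : Fin k) : ℕ) < s := i.2
    have h5 : Fin.castLE hsk i ∈ Finset.univ.filter fun i : Fin k => (i : ℕ) < s :=
      Finset.mem_filter.2 ⟨Finset.mem_univ _, h4⟩
    rw [if_pos h5, dif_pos h4] at h3
    exact h3
  choose G hGm hG using hG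
  have hτ : ∀ a : {a : F // a ^ q = a}, ∃ g : SIso B, ∀ x, g.1 x = x + (a.1 * B (u (Fin.castLE hsk ⟨0, hs⟩)) x) •
      u (Fin.castLE hsk ⟨0, hs⟩) := by
    intro a
    obtain ⟨g, hg⟩ := exists_siegel hB (w := 0) (μ := a.1) (hu.ti (Fin.castLE hsk ⟨0, hs⟩) (Fin.castLE hsk ⟨0, hs⟩))
      (map_zero _) (by
        rw [map_zero, add_zero, sig_eq hF hB.ne_id hB.invol, a.2, ← two_mul, h2, zero_mul])
    refine ⟨g, fun x => ?_⟩
    rw [hg, smul_zero, add_zero, map_zero, LinearMap.zero_apply, sub_zero]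
  choose τ hτ using hτ
  have hu0 : u (Fin.castLE hsk ⟨0, hs⟩) ∈ W F u s := mem_W u hs
  have hτm : ∀ a, τ a ∈ RR B u s := by
    intro a
    refine ⟨fun i => ?_, fun x _ => ?_⟩
    · rw [hτ, hu.ti, mul_zero, zero_smul, add_zero]
    · rw [hτ, add_sub_cancel_left]
      exact Submodule.smul_mem _ _ hu0
  let Φ : (Fin s → C) × {a : F // a ^ q = a} → RR B u s := fun p => ⟨G p.1 * τ p.2, mul_mem (hGm p.1) (hτm p.2)⟩
  have hΦ : Function.Injective Φ := by
    rintro ⟨w, a⟩ ⟨w', a'⟩ e
    have e1 : ∀ x, (G w).1 ((τ a).1 x) = (G w').1 ((τ a').1 x) := fun x =>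
      congrArg (fun g : RR B u s => g.1.1 x) e
    have key : ∀ (w : Fin s → C) (a : {a : F // a ^ q = a}) (i : Fin s),
        (G w).1 ((τ a).1 (f (Fin.castLE hsk i))) - f (Fin.castLE hsk i) - (w i : V) ∈ W F u s := by
      intro w a i
      rw [hτ, map_add, fix_W (hGm w).1 (Submodule.smul_mem _ _ hu0)]
      have h3 : ∀ x y z v : V, x + y - z - v = (x - z - v) + y := fun x y z v => by abel
      rw [h3]
      exact add_mem (hG w i) (Submodule.smul_mem _ _ hu0)
    have hw : w = w' := by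
      funext i
      have h3 := key w a i
      have h4 := key w' a' i
      rw [← e1] at h4
      have h5 : ((w i : V) - (w' i : V)) ∈ C ⊓ W F u s := by
        refine ⟨sub_mem (w i).2 (w' i).2, ?_⟩
        have h6 := sub_mem h4 h3
        have h7 : ∀ x z v v' : V, (x - z - v') - (x - z - v) = v - v' := fun x z v v' => by abel
        rwa [h7] at h6
      rw [hCZ, Submodule.mem_bot, sub_eq_zero] at h5
      exact Subtype.ext h5
    subst hw
    have h6 := e1 (f (Fin.castLE hsk ⟨0, hs⟩))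
    have h7 := (G w).1.injective h6
    rw [hτ, hτ, hf, if_pos rfl, mul_one, mul_one] at h7
    have h8 : a = a' := Subtype.ext (smul_left_injective F (hu.li.ne_zero _) (add_left_cancel h7))
    rw [h8]
  have h3 := Nat.card_le_card_of_injective Φ hΦ
  have h4 : Nat.card C = (q ^ 2) ^ (finrank F V - k - s) := by
    rw [Module.natCard_eq_pow_finrank (K := F), hCd, Nat.card_eq_fintype_card, hF]
  rw [Nat.card_prod, Nat.card_fun, h4, Cfsg.Agent.LieClassical.HermBasic.card_fixed hF, Nat.card_eq_fintype_card,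
    Fintype.card_fin, ← pow_mul, mul_comm (finrank F V - k - s) s, mul_comm] at h3
  exact h3

/-- **the rank of the involutions of `RR B u s`** -/
theorem rank_le [Finite F] (hB : HForm B) {u : Fin k → V} (hu : Frame B u) {s : ℕ} (hsk : s ≤ k) {g : SIso B}
    (hg : g ∈ RR B u s) {k' : ℕ} {u' : Fin k' → V} (hu' : Frame B u')
    (hgu : ∀ x, g.1 x = x + ∑ i, B (u' i) x • u' i) : k' ≤ 2 * s := by
  let N : V →ₗ[F] V := (g.1 : V →ₗ[F] V) - LinearMap.id
  have hN : ∀ x, N x = g.1 x - x := fun x => rfl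
  have h1 : perp B (W F u' k') = LinearMap.ker N := by
    ext x
    rw [mem_perp_W, LinearMap.mem_ker, hN, hgu, add_sub_cancel_left]
    constructor
    · intro h
      refine Finset.sum_eq_zero fun i _ => ?_
      rw [hB.swap_zero (h i i.2), zero_smul]
    · intro h l _
      exact hB.swap_zero (Fintype.linearIndependent_iff.1 hu'.li _ h l)
  have h2 := finrank_perp hB (W F u' k')
  rw [finrank_W hu'.li le_rfl, h1] at h2
  have h3 := finrank_perp hB (W F u s)
  rw [finrank_W hu.li hsk] at h3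
  let M : perp B (W F u s) →ₗ[F] V := N ∘ₗ Submodule.subtype _
  have h4 := LinearMap.finrank_range_add_finrank_ker M
  have h5 : finrank F (LinearMap.range M) ≤ s := by
    refine (Submodule.finrank_mono ?_).trans (finrank_W (F := F) hu.li hsk).le
    rintro _ ⟨x, rfl⟩
    exact hg.2 x.1 x.2
  have h6 : finrank F (LinearMap.ker M) ≤ finrank F (LinearMap.ker N) := by
    rw [show LinearMap.ker M = (LinearMap.ker N).comap (Submodule.subtype _) from rfl]
    refine LinearMap.finrank_le_finrank_of_injective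
      (f := (Submodule.subtype (perp B (W F u s))).restrict (p := (LinearMap.ker N).comap (Submodule.subtype _))
        (q := LinearMap.ker N) fun x hx => hx) ?_
    intro x y e
    exact Subtype.ext (Subtype.ext (congrArg Subtype.val e :))
  omega

end

end Cfsg.Agent.H406.IF
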